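import Cfsg.Agent.H626.IFO.Defs

/-!
# S5719, `|A|` odd, orthogonal groups: an isometry inverting an abelian group of odd order (helper626)

On a cyclic block `F[R] u` the map `x u ↦ x⁻¹ u` is automatically an isometry. `exists_inv`.
-/

set_option autoImplicit false

namespace Cfsg.Agent.H626.IFO

open QuadraticMap Cfsg.Agent.LieClassical.OrthCore Module

variable {F V : Type*} [Field F] [AddCommGroup V] [Module F V] {Q : QuadraticForm F V}

/-- two spanning families with the same values of `Q` and of its polar form differ by an isometry -/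
theorem exists_isom {ι : Type*} (hQ : Nondeg Q) (p p' : ι → V) (h1 : ∀ i, Q (p i) = Q (p' i))
    (h2 : ∀ i j, polar Q (p i) (p j) = polar Q (p' i) (p' j)) (hp : Submodule.span F (Set.range p) = ⊤)
    (hp' : Submodule.span F (Set.range p') = ⊤) : ∃ g ∈ O Q, ∀ i, g (p i) = p' i := by
  classical
  set P := Finsupp.linearCombination F p with hPdef
  set P' := Finsupp.linearCombination F p' with hPdef'
  have hP : Function.Surjective P := by
    rw [← LinearMap.range_eq_top, Finsupp.range_linearCombination]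
    exact hp
  have hP' : Function.Surjective P' := by
    rw [← LinearMap.range_eq_top, Finsupp.range_linearCombination]
    exact hp'
  have hB : ∀ a b, polar Q (P a) (P b) = polar Q (P' a) (P' b) := by
    intro a b
    induction a using Finsupp.induction_linear with
    | zero => rw [map_zero, map_zero, polar_zero_left, polar_zero_left]
    | add a a' ha ha' => rw [map_add, polar_add_left, ha, ha', map_add, polar_add_left]
    | single i c =>
      induction b using Finsupp.induction_linear with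
      | zero => rw [map_zero, map_zero, polar_zero_right, polar_zero_right]
      | add b b' hb hb' => rw [map_add, polar_add_right, hb, hb', map_add, polar_add_right]
      | single j d =>
        rw [hPdef, hPdef', Finsupp.linearCombination_single, Finsupp.linearCombination_single,
          Finsupp.linearCombination_single, Finsupp.linearCombination_single, polar_smul_left, polar_smul_left,
          polar_smul_right, polar_smul_right, h2]
  have hQQ : ∀ a, Q (P a) = Q (P' a) := by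
    intro a
    induction a using Finsupp.induction_linear with
    | zero => rw [map_zero P, map_zero P']
    | add a a' ha ha' => rw [map_add, Q_add, ha, ha', hB, map_add, Q_add]
    | single i c =>
      rw [hPdef, hPdef', Finsupp.linearCombination_single, Finsupp.linearCombination_single,
        QuadraticMap.map_smul, QuadraticMap.map_smul, h1]
  have hker : LinearMap.ker P = LinearMap.ker P' := by
    ext a
    rw [LinearMap.mem_ker, LinearMap.mem_ker]
    constructor
    · intro h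
      apply hQ
      intro y
      obtain ⟨b, rfl⟩ := hP' y
      rw [← hB, h, polar_zero_left]
    · intro h
      apply hQ
      intro y
      obtain ⟨b, rfl⟩ := hP y
      rw [hB, h, polar_zero_left]
  let g : V ≃ₗ[F] V := (P.quotKerEquivOfSurjective hP).symm ≪≫ₗ
    (Submodule.quotEquivOfEq _ _ hker) ≪≫ₗ (P'.quotKerEquivOfSurjective hP')
  have hg : ∀ a, g (P a) = P' a := by
    intro a
    have h3 : (P.quotKerEquivOfSurjective hP).symm (P a) = Submodule.Quotient.mk a := by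
      rw [LinearEquiv.symm_apply_eq]
      rfl
    change (P'.quotKerEquivOfSurjective hP') ((Submodule.quotEquivOfEq _ _ hker)
      ((P.quotKerEquivOfSurjective hP).symm (P a))) = P' a
    rw [h3]
    rfl
  refine ⟨g, ?_, fun i => ?_⟩
  · intro v
    obtain ⟨a, rfl⟩ := hP v
    rw [hg, hQQ]
  · have h3 := hg (Finsupp.single i 1)
    rw [hPdef, hPdef', Finsupp.linearCombination_single, Finsupp.linearCombination_single, one_smul, one_smul] at h3
    exact h3

/-- `W` is nondegenerate -/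
def ND (Q : QuadraticForm F V) (W : Submodule F V) : Prop := ∀ w ∈ W, (∀ v ∈ W, polar Q w v = 0) → w = 0

/-- the orthogonal space -/
def perp (Q : QuadraticForm F V) (W : Submodule F V) : Submodule F V where
  carrier := {v | ∀ w ∈ W, polar Q v w = 0}
  zero_mem' := fun w _ => polar_zero_left Q w
  add_mem' := by
    intro a b ha hb w hw
    rw [polar_add_left, ha w hw, hb w hw, add_zero]
  smul_mem' := by
    intro c a ha w hw
    rw [polar_smul_left, ha w hw, smul_zero]

theorem mem_perp {W : Submodule F V} {v : V} : v ∈ perp Q W ↔ ∀ w ∈ W, polar Q v w = 0 := Iff.rfl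

theorem split [FiniteDimensional F V] {W : Submodule F V} (hW : ND Q W) (v : V) :
    ∃ w ∈ W, ∃ z ∈ perp Q W, v = w + z := by
  let φ : W →ₗ[F] Module.Dual F W := (LinearMap.lcomp F F W.subtype) ∘ₗ (polarBilin Q) ∘ₗ W.subtype
  have hφ : ∀ a b : W, φ a b = polar Q (a : V) (b : V) := fun a b => rfl
  have hinj : Function.Injective φ := by
    rw [injective_iff_map_eq_zero]
    intro a ha
    apply Subtype.ext
    apply hW a a.2
    intro b hb
    have h1 := hφ a ⟨b, hb⟩
    rw [ha] at h1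
    exact h1.symm
  have hsurj : Function.Surjective φ :=
    (LinearMap.injective_iff_surjective_of_finrank_eq_finrank (Subspace.dual_finrank_eq).symm).1 hinj
  obtain ⟨w, hw⟩ := hsurj ((LinearMap.lcomp F F W.subtype) (polarBilin Q v))
  refine ⟨w, w.2, v - w, ?_, by abel⟩
  intro b hb
  have h1 : φ w ⟨b, hb⟩ = polar Q v b := by rw [hw]; rfl
  rw [hφ] at h1
  rw [polar_sub_left, h1, sub_self]

theorem perp_perp_le {W : Submodule F V} : W ≤ perp Q (perp Q W) := by
  intro w hw v hv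
  rw [polar_comm]
  exact hv w hw

theorem nd_perp [FiniteDimensional F V] (hQ : Nondeg Q) {W : Submodule F V} (hW : ND Q W) : ND Q (perp Q W) := by
  intro w hw h
  apply hQ
  intro y
  obtain ⟨a, ha, z, hz, rfl⟩ := split hW y
  rw [polar_add_right, hw a ha, h z hz, add_zero]

/-- `U` splits off a nondegenerate subspace -/
theorem nd_inf [FiniteDimensional F V] {U W : Submodule F V} (hU : ND Q U) (hWU : W ≤ U) (hW : ND Q W) :
    ND Q (U ⊓ perp Q W) ∧ U ≤ W ⊔ (U ⊓ perp Q W) := by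
  have h1 : ∀ y ∈ U, ∃ a ∈ W, ∃ z ∈ U ⊓ perp Q W, y = a + z := by
    intro y hy
    obtain ⟨a, ha, z, hz, h⟩ := split hW y
    refine ⟨a, ha, z, ⟨?_, hz⟩, h⟩
    have : z = y - a := by rw [h]; abel
    rw [this]
    exact U.sub_mem hy (hWU ha)
  refine ⟨?_, ?_⟩
  · intro w hw h
    apply hU w hw.1
    intro y hy
    obtain ⟨a, ha, z, hz, rfl⟩ := h1 y hy
    rw [polar_add_right, hw.2 a ha, h z hz, add_zero]
  · intro y hy
    obtain ⟨a, ha, z, hz, rfl⟩ := h1 y hy
    exact Submodule.add_mem_sup ha hz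

variable {R : Subgroup (V ≃ₗ[F] V)}

/-- `R`-invariant subspaces -/
def Inv (R : Subgroup (V ≃ₗ[F] V)) (W : Submodule F V) : Prop := ∀ x ∈ R, ∀ w ∈ W, x w ∈ W

/-- the fixed space of `R` -/
def Fx (R : Subgroup (V ≃ₗ[F] V)) : Submodule F V where
  carrier := {v | ∀ x ∈ R, x v = v}
  zero_mem' := fun x _ => map_zero x
  add_mem' := by
    intro a b ha hb x hx
    rw [map_add, ha x hx, hb x hx]
  smul_mem' := by
    intro c a ha x hx
    rw [map_smul, ha x hx]

theorem mem_Fx {v : V} : v ∈ Fx R ↔ ∀ x ∈ R, x v = v := Iff.rfl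

/-- the cyclic block `F[R] u` -/
def cyc (R : Subgroup (V ≃ₗ[F] V)) (u : V) : Submodule F V := Submodule.span F {w | ∃ x ∈ R, w = x u}

theorem mem_cyc {x : V ≃ₗ[F] V} (hx : x ∈ R) (u : V) : x u ∈ cyc R u := Submodule.subset_span ⟨x, hx, rfl⟩

theorem self_mem_cyc (u : V) : u ∈ cyc R u := mem_cyc (one_mem R) u

theorem inv_cyc (u : V) : Inv R (cyc R u) := by
  intro x hx w hw
  induction hw using Submodule.span_induction with
  | mem w h =>
    obtain ⟨y, hy, rfl⟩ := h
    exact mem_cyc (mul_mem hx hy) u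
  | zero => rw [map_zero]; exact zero_mem _
  | add a b _ _ ha hb => rw [map_add]; exact add_mem ha hb
  | smul c a _ ha => rw [map_smul]; exact Submodule.smul_mem _ _ ha

theorem cyc_le {U : Submodule F V} (hU : Inv R U) {u : V} (hu : u ∈ U) : cyc R u ≤ U := by
  apply Submodule.span_le.2
  rintro _ ⟨x, hx, rfl⟩
  exact hU x hx u hu

theorem inv_inf {U W : Submodule F V} (hU : Inv R U) (hW : Inv R W) : Inv R (U ⊓ W) :=
  fun x hx w hw => ⟨hU x hx w hw.1, hW x hx w hw.2⟩

theorem polar_inv (hR : R ≤ O Q) {x : V ≃ₗ[F] V} (hx : x ∈ R) (a b : V) : polar Q (x a) b = polar Q a (x⁻¹ b) := by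
  have h1 := polar_map (hR hx) a (x⁻¹ b)
  rw [← h1]
  congr 1
  exact (LinearEquiv.apply_symm_apply x b).symm

theorem inv_perp (hR : R ≤ O Q) {W : Submodule F V} (hW : Inv R W) : Inv R (perp Q W) := by
  intro x hx v hv w hw
  rw [polar_inv hR hx]
  exact hv _ (hW _ (inv_mem hx) w hw)

/-- averaging an endomorphism over `R` -/
noncomputable def av (R : Subgroup (V ≃ₗ[F] V)) [Fintype R] (π : V →ₗ[F] V) : V →ₗ[F] V :=
  (Fintype.card R : F)⁻¹ • ∑ x : R, ((x : V ≃ₗ[F] V) : V →ₗ[F] V) ∘ₗ π ∘ₗ (((x : V ≃ₗ[F] V)⁻¹ : V ≃ₗ[F] V) : V →ₗ[F] V)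

theorem av_apply [Fintype R] (π : V →ₗ[F] V) (v : V) :
    av R π v = (Fintype.card R : F)⁻¹ • ∑ x : R, (x : V ≃ₗ[F] V) (π (((x : V ≃ₗ[F] V)⁻¹ : V ≃ₗ[F] V) v)) := by
  rw [av, LinearMap.smul_apply, LinearMap.sum_apply]
  rfl

theorem av_comm [Fintype R] (π : V →ₗ[F] V) {y : V ≃ₗ[F] V} (hy : y ∈ R) (v : V) : y (av R π v) = av R π (y v) := by
  rw [av_apply, av_apply, map_smul, map_sum]
  congr 1
  refine Fintype.sum_equiv (Equiv.mulLeft (⟨y, hy⟩ : R)) _ _ ?_
  intro x
  change y ((x : V ≃ₗ[F] V) (π ((x : V ≃ₗ[F] V)⁻¹ v))) = (y * (x : V ≃ₗ[F] V)) (π ((y * (x : V ≃ₗ[F] V))⁻¹ (y v)))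
  rw [LinearEquiv.mul_apply, mul_inv_rev, LinearEquiv.mul_apply]
  congr 3
  congr 1
  exact (LinearEquiv.symm_apply_apply y v).symm

theorem av_mem [Fintype R] {π : V →ₗ[F] V} {D : Submodule F V} (hD : Inv R D) (hπ : ∀ v, π v ∈ D) (v : V) :
    av R π v ∈ D := by
  rw [av_apply]
  exact D.smul_mem _ (D.sum_mem fun x _ => hD x x.2 _ (hπ _))

theorem av_id [Fintype R] (hcard : (Fintype.card R : F) ≠ 0) {π : V →ₗ[F] V} {D : Submodule F V} (hD : Inv R D)
    (hπ : ∀ v ∈ D, π v = v) {v : V} (hv : v ∈ D) : av R π v = v := by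
  rw [av_apply]
  have h1 : ∀ x : R, (x : V ≃ₗ[F] V) (π (((x : V ≃ₗ[F] V)⁻¹ : V ≃ₗ[F] V) v)) = v := by
    intro x
    rw [hπ _ (hD _ (inv_mem x.2) v hv)]
    exact LinearEquiv.apply_symm_apply (x : V ≃ₗ[F] V) v
  rw [Finset.sum_congr rfl (fun x _ => h1 x), Finset.sum_const, Finset.card_univ, ← Nat.cast_smul_eq_nsmul F,
    smul_smul, inv_mul_cancel₀ hcard, one_smul]

/-- a nonzero nondegenerate cyclic block -/
theorem exists_cyc [FiniteDimensional F V] [Fintype R] (hR : R ≤ O Q) (hcard : (Fintype.card R : F) ≠ 0)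
    (hodd : ∀ x ∈ R, ∀ v, x (x v) = v → x v = v) {U : Submodule F V} (hU : ND Q U) (hUi : Inv R U)
    (hU0 : U ⊓ Fx R = ⊥) (hne : U ≠ ⊥) : ∃ u ∈ U, u ≠ 0 ∧ ND Q (cyc R u) := by
  obtain ⟨u0, hu0, x0, hx0, h0⟩ : ∃ u ∈ U, ∃ x ∈ R, polar Q (x u) u ≠ 0 := by
    by_contra hcon
    push Not at hcon
    have h1 : ∀ u ∈ U, ∀ x ∈ R, x u + x⁻¹ u = 0 := by
      intro u hu x hx
      apply hU _ (U.add_mem (hUi x hx u hu) (hUi _ (inv_mem hx) u hu))
      intro w hw
      have h2 := hcon (u + w) (U.add_mem hu hw) x hx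
      rw [map_add, polar_add_left, polar_add_right, polar_add_right, hcon u hu x hx, hcon w hw x hx, zero_add,
        add_zero, polar_inv hR hx w u, polar_comm Q w] at h2
      rw [polar_add_left]
      exact h2
    apply hne
    rw [Submodule.eq_bot_iff]
    intro u hu
    have h2 : u ∈ U ⊓ Fx R := by
      refine ⟨hu, fun x hx => ?_⟩
      apply hodd x hx
      have h3 := h1 u hu 1 (one_mem R)
      rw [inv_one] at h3
      have h3' : u + u = 0 := h3
      have h4 := h1 (x u) (hUi x hx u hu) x hx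
      have h5 : (x⁻¹ : V ≃ₗ[F] V) (x u) = u := LinearEquiv.symm_apply_apply x u
      rw [h5] at h4
      rw [eq_neg_of_add_eq_zero_left h4]
      exact (eq_neg_of_add_eq_zero_left h3').symm
    rw [hU0] at h2
    exact h2
  set C := cyc R u0 with hC
  set D := C ⊓ perp Q C with hD
  have hDi : Inv R D := inv_inf (inv_cyc u0) (inv_perp hR (inv_cyc u0))
  obtain ⟨D', hD'⟩ := Submodule.exists_isCompl D
  let π0 : V →ₗ[F] V := D.subtype ∘ₗ (D.projectionOnto D' hD')
  have hπ0 : ∀ v, π0 v ∈ D := fun v => (D.projectionOnto D' hD' v).2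
  have hπ1 : ∀ v ∈ D, π0 v = v := by
    intro v hv
    change ((D.projectionOnto D' hD' v : D) : V) = v
    rw [Submodule.projectionOnto_apply_left hD' ⟨v, hv⟩]
  set π := av R π0 with hπ
  have hπm : ∀ v, π v ∈ D := av_mem hDi hπ0
  have hπi : ∀ v ∈ D, π v = v := fun v hv => av_id hcard hDi hπ1 hv
  have hπc : ∀ x ∈ R, ∀ v, x (π v) = π (x v) := fun x hx v => av_comm π0 hx v
  set u1 := u0 - π u0 with hu1
  have hu1C : u1 ∈ C := C.sub_mem (self_mem_cyc u0) (hπm u0).1
  -- the block of `u1`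
  have hle : cyc R u1 ≤ C := cyc_le (inv_cyc u0) hu1C
  have hmem : ∀ c ∈ C, c - π c ∈ cyc R u1 := by
    intro c hc
    induction hc using Submodule.span_induction with
    | mem w h =>
      obtain ⟨y, hy, rfl⟩ := h
      have : y u0 - π (y u0) = y u1 := by rw [hu1, map_sub, hπc y hy]
      rw [this]
      exact mem_cyc hy u1
    | zero => rw [map_zero, sub_zero]; exact zero_mem _
    | add a b _ _ ha hb =>
      rw [map_add, add_sub_add_comm]
      exact add_mem ha hb
    | smul c a _ ha =>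
      rw [map_smul, ← smul_sub]
      exact Submodule.smul_mem _ _ ha
  have hker : ∀ c ∈ cyc R u1, π c = 0 := by
    intro c hc
    induction hc using Submodule.span_induction with
    | mem w h =>
      obtain ⟨y, hy, rfl⟩ := h
      rw [← hπc y hy, hu1, map_sub, hπi _ (hπm u0), sub_self, map_zero]
    | zero => rw [map_zero]
    | add a b _ _ ha hb => rw [map_add, ha, hb, add_zero]
    | smul c a _ ha => rw [map_smul, ha, smul_zero]
  have hnd : ND Q (cyc R u1) := by
    intro w hw h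
    have h1 : w ∈ D := by
      refine ⟨hle hw, fun c hc => ?_⟩
      have h2 := h _ (hmem c hc)
      have h3 : polar Q w (π c) = 0 := by
        rw [polar_comm]
        exact (hπm c).2 w (hle hw)
      rw [polar_sub_right, h3, sub_zero] at h2
      exact h2
    rw [← hπi w h1, hker w hw]
  have hu1U : u1 ∈ U := (cyc_le hUi hu0) hu1C
  refine ⟨u1, hu1U, ?_, hnd⟩
  intro h1
  have h2 : π u0 = u0 := by
    rw [hu1, sub_eq_zero] at h1
    exact h1.symm
  have h3 : u0 ∈ D := by rw [← h2]; exact hπm u0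
  apply h0
  rw [polar_comm]
  exact h3.2 _ (mem_cyc hx0 u0)

/-- an orthogonal family of cyclic blocks -/
structure Fam (Q : QuadraticForm F V) (R : Subgroup (V ≃ₗ[F] V)) (U : Submodule F V) (S : Set V) : Prop where
  mem : ∀ u ∈ S, u ∈ U
  ne : ∀ u ∈ S, u ≠ 0
  nd : ∀ u ∈ S, ND Q (cyc R u)
  orth : ∀ u ∈ S, ∀ u' ∈ S, u ≠ u' → ∀ x ∈ R, ∀ y ∈ R, polar Q (x u) (y u') = 0
  span : U ≤ Submodule.span F {w | ∃ u ∈ S, ∃ x ∈ R, w = x u}

theorem exists_fam [FiniteDimensional F V] [Fintype R] (hR : R ≤ O Q) (hcard : (Fintype.card R : F) ≠ 0)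
    (hodd : ∀ x ∈ R, ∀ v, x (x v) = v → x v = v) (n : ℕ) : ∀ {U : Submodule F V}, finrank F U ≤ n → ND Q U →
    Inv R U → U ⊓ Fx R = ⊥ → ∃ S, Fam Q R U S := by
  induction n with
  | zero =>
    intro U hn _ _ _
    have h1 : U = ⊥ := Submodule.finrank_eq_zero.1 (Nat.le_zero.1 hn)
    exact ⟨∅, fun u h => h.elim, fun u h => h.elim, fun u h => h.elim, fun u h => h.elim, by rw [h1]; exact bot_le⟩
  | succ n ih =>
    intro U hn hU hUi hU0
    by_cases hne : U = ⊥
    · exact ⟨∅, fun u h => h.elim, fun u h => h.elim, fun u h => h.elim, fun u h => h.elim, by rw [hne]; exact bot_le⟩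
    obtain ⟨u, hu, hu0, hnd⟩ := exists_cyc hR hcard hodd hU hUi hU0 hne
    obtain ⟨h1, h2⟩ := nd_inf hU (cyc_le hUi hu) hnd
    have hlt : finrank F ↥(U ⊓ perp Q (cyc R u)) ≤ n := by
      have h3 : U ⊓ perp Q (cyc R u) < U := by
        refine lt_of_le_of_ne inf_le_left ?_
        intro h4
        have h5 : u ∈ U ⊓ perp Q (cyc R u) := by rw [h4]; exact hu
        apply hu0
        apply hnd u (self_mem_cyc u)
        exact h5.2
      have h4 := Submodule.finrank_lt_finrank_of_lt h3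
      omega
    obtain ⟨S, hS⟩ := ih hlt h1 (inv_inf hUi (inv_perp hR (inv_cyc u)))
      (by rw [eq_bot_iff]; intro v hv; rw [← hU0]; exact ⟨hv.1.1, hv.2⟩)
    refine ⟨insert u S, ?_, ?_, ?_, ?_, ?_⟩
    · rintro v (rfl | hv)
      · exact hu
      · exact (hS.mem v hv).1
    · rintro v (rfl | hv)
      · exact hu0
      · exact hS.ne v hv
    · rintro v (rfl | hv)
      · exact hnd
      · exact hS.nd v hv
    · rintro v (rfl | hv) w (rfl | hw) hvw x hx y hy
      · exact absurd rfl hvw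
      · rw [polar_comm]
        exact (inv_perp hR (inv_cyc v) y hy w (hS.mem w hw).2) _ (mem_cyc hx v)
      · exact (inv_perp hR (inv_cyc w) x hx v (hS.mem v hv).2) _ (mem_cyc hy w)
      · exact hS.orth v hv w hw hvw x hx y hy
    · refine h2.trans (sup_le ?_ ?_)
      · apply Submodule.span_mono
        rintro _ ⟨x, hx, rfl⟩
        exact ⟨u, Set.mem_insert _ _, x, hx, rfl⟩
      · refine hS.span.trans (Submodule.span_mono ?_)
        rintro _ ⟨v, hv, x, hx, rfl⟩
        exact ⟨v, Set.mem_insert_of_mem _ hv, x, hx, rfl⟩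

/-- **The inverting isometry** of a nondegenerate `R`-invariant subspace without fixed vectors. -/
theorem exists_inv [FiniteDimensional F V] [Fintype R] (hQ : Nondeg Q) (hR : R ≤ O Q)
    (hc : ∀ x ∈ R, ∀ y ∈ R, x * y = y * x) (hcard : (Fintype.card R : F) ≠ 0)
    (hodd : ∀ x ∈ R, ∀ v, x (x v) = v → x v = v) {W : Submodule F V} (hW : ND Q W) (hWi : Inv R W)
    (hW0 : W ⊓ Fx R = ⊥) :
    ∃ g ∈ O Q, (∀ v, g (g v) = v) ∧ (∀ v ∈ perp Q W, g v = v) ∧ (∀ v ∈ W, g v ∈ W) ∧
      ∀ x ∈ R, ∀ v ∈ W, g (x v) = (x⁻¹ : V ≃ₗ[F] V) (g v) := by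
  obtain ⟨S, hS⟩ := exists_fam hR hcard hodd _ le_rfl hW hWi hW0
  let p : ((S × R) ⊕ perp Q W) → V := Sum.elim (fun i => (i.2 : V ≃ₗ[F] V) (i.1 : V)) (fun v => (v : V))
  let p' : ((S × R) ⊕ perp Q W) → V :=
    Sum.elim (fun i => ((i.2 : V ≃ₗ[F] V)⁻¹ : V ≃ₗ[F] V) (i.1 : V)) (fun v => (v : V))
  have hrp : Set.range p = Set.range p' := by
    ext v
    constructor
    · rintro ⟨⟨u, x⟩ | v, rfl⟩
      · refine ⟨Sum.inl (u, x⁻¹), ?_⟩
        change (((x⁻¹ : R) : V ≃ₗ[F] V)⁻¹ : V ≃ₗ[F] V) (u : V) = (x : V ≃ₗ[F] V) (u : V)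
        rw [Subgroup.coe_inv, inv_inv]
      · exact ⟨Sum.inr v, rfl⟩
    · rintro ⟨⟨u, x⟩ | v, rfl⟩
      · exact ⟨Sum.inl (u, x⁻¹), rfl⟩
      · exact ⟨Sum.inr v, rfl⟩
  have hsp : Submodule.span F (Set.range p) = ⊤ := by
    rw [eq_top_iff]
    intro v _
    obtain ⟨w, hw, z, hz, rfl⟩ := split hW v
    apply add_mem
    · refine (Submodule.span_mono ?_) (hS.span hw)
      rintro _ ⟨u, hu, x, hx, rfl⟩
      exact ⟨Sum.inl (⟨u, hu⟩, ⟨x, hx⟩), rfl⟩
    · exact Submodule.subset_span ⟨Sum.inr ⟨z, hz⟩, rfl⟩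
  have hpm : ∀ i : S × R, p (Sum.inl i) ∈ W := fun i => hWi _ i.2.2 _ (hS.mem _ i.1.2)
  have hpm' : ∀ i : S × R, p' (Sum.inl i) ∈ W := fun i => hWi _ (inv_mem i.2.2) _ (hS.mem _ i.1.2)
  obtain ⟨g, hg, hgp⟩ := exists_isom hQ p p' (by
      rintro (⟨u, x⟩ | v)
      · change Q ((x : V ≃ₗ[F] V) (u : V)) = Q (((x : V ≃ₗ[F] V)⁻¹ : V ≃ₗ[F] V) (u : V))
        rw [hR x.2, hR (inv_mem x.2)]
      · rfl) (by
      rintro (⟨u, x⟩ | v) (⟨u', x'⟩ | v')
      · change polar Q ((x : V ≃ₗ[F] V) (u : V)) ((x' : V ≃ₗ[F] V) (u' : V)) =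
          polar Q (((x : V ≃ₗ[F] V)⁻¹ : V ≃ₗ[F] V) (u : V)) (((x' : V ≃ₗ[F] V)⁻¹ : V ≃ₗ[F] V) (u' : V))
        by_cases huu : (u : V) = u'
        · rw [huu, polar_inv hR x.2, ← LinearEquiv.mul_apply, polar_inv hR (inv_mem x.2), inv_inv,
            ← LinearEquiv.mul_apply, hc _ x.2 _ (inv_mem x'.2)]
          have h1 : ((x' : V ≃ₗ[F] V)⁻¹ * (x : V ≃ₗ[F] V)) = ((x : V ≃ₗ[F] V)⁻¹ * (x' : V ≃ₗ[F] V))⁻¹ := by
            rw [mul_inv_rev, inv_inv]
          rw [h1, ← polar_inv hR (mul_mem (inv_mem x.2) x'.2), polar_comm]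
        · rw [hS.orth _ u.2 _ u'.2 huu _ x.2 _ x'.2, hS.orth _ u.2 _ u'.2 huu _ (inv_mem x.2) _ (inv_mem x'.2)]
      · change polar Q (p (Sum.inl (u, x))) (v' : V) = polar Q (p' (Sum.inl (u, x))) (v' : V)
        rw [polar_comm, v'.2 _ (hpm _), polar_comm, v'.2 _ (hpm' _)]
      · change polar Q (v : V) (p (Sum.inl (u', x'))) = polar Q (v : V) (p' (Sum.inl (u', x')))
        rw [v.2 _ (hpm _), v.2 _ (hpm' _)]
      · rfl) hsp (by rw [← hrp]; exact hsp)
  have hgu : ∀ u ∈ S, ∀ x ∈ R, g (x u) = (x⁻¹ : V ≃ₗ[F] V) u := fun u hu x hx => hgp (Sum.inl (⟨u, hu⟩, ⟨x, hx⟩))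
  have hgv : ∀ v ∈ perp Q W, g v = v := fun v hv => hgp (Sum.inr ⟨v, hv⟩)
  -- induction over `W`
  have key : ∀ v ∈ W, g v ∈ W ∧ g (g v) = v ∧ ∀ x ∈ R, g (x v) = (x⁻¹ : V ≃ₗ[F] V) (g v) := by
    intro v hv
    have hv' := hS.span hv
    clear hv
    induction hv' using Submodule.span_induction with
    | mem w h =>
      obtain ⟨u, hu, y, hy, rfl⟩ := h
      refine ⟨?_, ?_, ?_⟩
      · rw [hgu u hu y hy]
        exact hWi _ (inv_mem hy) _ (hS.mem u hu)
      · rw [hgu u hu y hy, hgu u hu _ (inv_mem hy), inv_inv]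
      · intro x hx
        have h1 := hgu u hu _ (mul_mem hx hy)
        rw [LinearEquiv.mul_apply] at h1
        rw [h1, hgu u hu y hy, ← LinearEquiv.mul_apply, mul_inv_rev, hc _ (inv_mem hy) _ (inv_mem hx)]
    | zero => exact ⟨by rw [map_zero]; exact zero_mem _, by rw [map_zero, map_zero],
        fun x _ => by rw [map_zero, map_zero, map_zero]⟩
    | add a b _ _ ha hb =>
      refine ⟨?_, ?_, ?_⟩
      · rw [map_add]
        exact add_mem ha.1 hb.1
      · rw [map_add, map_add, ha.2.1, hb.2.1]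
      · intro x hx
        rw [map_add, map_add, ha.2.2 x hx, hb.2.2 x hx, map_add, map_add]
    | smul c a _ ha =>
      refine ⟨?_, ?_, ?_⟩
      · rw [map_smul]
        exact Submodule.smul_mem _ _ ha.1
      · rw [map_smul, map_smul, ha.2.1]
      · intro x hx
        rw [map_smul, map_smul, ha.2.2 x hx, map_smul, map_smul]
  refine ⟨g, hg, ?_, hgv, fun v hv => (key v hv).1, fun x hx v hv => (key v hv).2.2 x hx⟩
  intro v
  obtain ⟨w, hw, z, hz, rfl⟩ := split hW v
  rw [map_add, map_add, (key w hw).2.1, hgv z hz, hgv z hz]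

end Cfsg.Agent.H626.IFO
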